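import Cfsg.Agent.OrdDiv.Main
import Cfsg.Agent.H349.ESBound
import Cfsg.Agent.H349.TwoPart

/-!
# Known simple groups with a large extraspecial subgroup and small 2-part (helper349)

`elim` : a known simple group with a subgroup `2^(1+20)` whose order is not divisible by `2^38` is in characteristic two
(or sporadic): it is in the list `candsE P`, for every condition `P` satisfied by its order.
-/

set_option autoImplicit false

namespace Cfsg.Agent.H349.Elim

open Cfsg Cfsg.Agent.OrdDiv Cfsg.Agent.H349.ESBound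

universe u

/-- candidates `(n, q)` of the family with `q` even, the 2-part of the order at most `2^37` -/
def candE (P : ℕ → Bool) (D : Fam) : List (ℕ × ℕ) :=
  (box [(2, 37)] D.e D.lo).filter fun x => D.ok x.1 x.2 && P (D.num x.1 x.2 / D.den x.1 x.2)

theorem mem_candE {P : ℕ → Bool} (D : Fam) {n q c : ℕ} (hq : IsPrimePow q) (hqe : ¬ Odd q)
    (hlo : D.lo ≤ n) (hn : n ≤ D.e n + 1) (he1 : 1 ≤ D.e n) (hok : D.ok n q = true)
    (hc : D.den n q * c = D.num n q) (hpow : q ^ D.e n ∣ D.num n q) (hcop : (D.den n q).Coprime q)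
    (h38 : ¬ 2 ^ 38 ∣ c) (hP : P c = true) : (n, q) ∈ candE P D := by
  unfold candE
  rw [List.mem_filter]
  obtain ⟨p, f, hp, hf, rfl⟩ := (isPrimePow_nat_iff q).1 hq
  have hp2 : p = 2 := by
    rcases hp.eq_two_or_odd' with h | h
    · exact h
    · exact absurd (h.pow) hqe
  subst hp2
  constructor
  · have h1 : (2 ^ f) ^ D.e n ∣ c := by
      rw [← hc] at hpow
      exact Nat.Coprime.dvd_of_dvd_mul_left (Nat.Coprime.pow_left _ hcop.symm) hpow
    rw [← pow_mul] at h1
    refine mem_box (List.mem_singleton.2 rfl) hf hlo hn he1 ?_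
    by_contra hlt
    push Not at hlt
    apply h38
    exact (pow_dvd_pow 2 (by rw [mul_comm] at hlt; omega)).trans h1
  · rw [Bool.and_eq_true]
    refine ⟨hok, ?_⟩
    rw [← div_eq hq hcop hc]
    exact hP

/-- one-parameter families -/
theorem one_memE {P : ℕ → Bool} {a : ℕ} {f den : ℕ → ℕ} {ok : ℕ → Bool} {q c : ℕ} (ha : 1 ≤ a) (hq : IsPrimePow q)
    (hqe : ¬ Odd q) (hok : ok q = true) (hc : den q * c = q ^ a * f q) (hcop : (den q).Coprime q)
    (h38 : ¬ 2 ^ 38 ∣ c) (hP : P c = true) : (0, q) ∈ candE P (one a f den ok) :=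
  mem_candE (one a f den ok) hq hqe (Nat.zero_le _) (Nat.zero_le _) (by change 1 ≤ a + 1000 * 0; omega) hok hc
    (by change q ^ (a + 1000 * 0) ∣ q ^ a * f q; rw [mul_zero, add_zero]; exact Dvd.intro _ rfl) hcop h38 hP

/-- all candidates -/
def candsE (P : ℕ → Bool) : List Grp :=
  List.flatten [
    (candE P fPSL).map (fun x => Grp.psl x.1 x.2),
    (candE P fPSp).map (fun x => Grp.psp x.1 x.2),
    (candE P fPSU).map (fun x => Grp.psu x.1 x.2),
    (candE P fOPlus).map (fun x => Grp.oplus x.1 x.2),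
    (candE P fOMinus).map (fun x => Grp.ominus x.1 x.2),
    (candE P fG2).map (fun x => Grp.g2 x.2),
    (candE P fF4).map (fun x => Grp.f4 x.2),
    (candE P fE6).map (fun x => Grp.e6 x.2),
    (candE P fE7).map (fun x => Grp.e7 x.2),
    (candE P fE8).map (fun x => Grp.e8 x.2),
    (candE P fTE6).map (fun x => Grp.te6 x.2),
    (candE P fTD4).map (fun x => Grp.td4 x.2),
    (candE P fSz).map (fun x => Grp.sz x.2),
    (candE P fTF4).map (fun x => Grp.tf4 x.2),
    (spor.filter (fun x => P x.2)).map (fun x => x.1)]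

theorem mem_candsE {P : ℕ → Bool} {g : Grp} (i : Fin 15)
    (h : g ∈ ([
    (candE P fPSL).map (fun x => Grp.psl x.1 x.2),
    (candE P fPSp).map (fun x => Grp.psp x.1 x.2),
    (candE P fPSU).map (fun x => Grp.psu x.1 x.2),
    (candE P fOPlus).map (fun x => Grp.oplus x.1 x.2),
    (candE P fOMinus).map (fun x => Grp.ominus x.1 x.2),
    (candE P fG2).map (fun x => Grp.g2 x.2),
    (candE P fF4).map (fun x => Grp.f4 x.2),
    (candE P fE6).map (fun x => Grp.e6 x.2),
    (candE P fE7).map (fun x => Grp.e7 x.2),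
    (candE P fE8).map (fun x => Grp.e8 x.2),
    (candE P fTE6).map (fun x => Grp.te6 x.2),
    (candE P fTD4).map (fun x => Grp.td4 x.2),
    (candE P fSz).map (fun x => Grp.sz x.2),
    (candE P fTF4).map (fun x => Grp.tf4 x.2),
    (spor.filter (fun x => P x.2)).map (fun x => x.1)] : List (List Grp)).get i) : g ∈ candsE P := by
  unfold candsE
  exact List.mem_flatten.2 ⟨_, by exact List.get_mem (l := [_, _, _, _, _, _, _, _, _, _, _, _, _, _, _]) i, h⟩

theorem two_ne {F : Type*} [Field F] [Fintype F] (h : Odd (Fintype.card F)) : (2 : F) ≠ 0 := by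
  intro h2
  have hp : CharP F 2 := CharTwo.of_one_ne_zero_of_two_eq_zero one_ne_zero h2
  obtain ⟨n, hn⟩ := FiniteField.card F 2
  rw [hn.2] at h
  exact (Nat.not_odd_iff_even.2 ((even_two).pow_of_ne_zero n.ne_zero)) h

theorem two_ne_of_sq {F : Type*} [Field F] [Fintype F] {q k : ℕ} (hF : Fintype.card F = q ^ k) (h : Odd q) :
    (2 : F) ≠ 0 := two_ne (by rw [hF]; exact h.pow)

theorem deg4 {n : ℕ} (h : 2 ^ 21 ≤ 2 * n ^ 4) : 32 ≤ n := by
  by_contra hlt
  push Not at hlt
  have h1 : n ^ 4 ≤ 31 ^ 4 := Nat.pow_le_pow_left (by omega) 4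
  norm_num at h1 h
  omega

theorem deg2 {n : ℕ} (h : 2 ^ 21 ≤ 2 * n ^ 2) : 1024 ≤ n := by
  by_contra hlt
  push Not at hlt
  have h1 : n ^ 2 ≤ 1023 ^ 2 := Nat.pow_le_pow_left (by omega) 2
  norm_num at h1 h
  omega

/-! ### the classical families -/

section

variable {P : ℕ → Bool} {X : Type*} [Group X]

theorem psl_case {F : Type} [Field F] [Fintype F] {n : ℕ} (hn : 2 ≤ n) (hn2 : n = 2 → 4 ≤ Fintype.card F)
    (hES : HasES (2 ^ 21) X) (e : X ≃* Matrix.ProjectiveSpecialLinearGroup (Fin n) F)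
    (h38 : ¬ 2 ^ 38 ∣ Nat.card X) (hP : P (Nat.card X) = true) : (n, Fintype.card F) ∈ candE P fPSL := by
  have hcX : Nat.card X = Nat.card (Matrix.ProjectiveSpecialLinearGroup (Fin n) F) := Nat.card_congr e.toEquiv
  by_cases ho : Odd (Fintype.card F)
  · exfalso
    have h1 := deg4 (psl (by norm_num) (two_ne ho) hES e)
    have h2 := TwoPart.psl ho Fintype.one_lt_card h1 (S0243.result (F := F) rfl n hn)
    rw [← hcX] at h2
    exact h38 ((pow_dvd_pow 2 (by norm_num)).trans h2)
  rw [hcX] at h38 hP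
  have hq : 1 < Fintype.card F := Fintype.one_lt_card
  have hc : fPSL.den n (Fintype.card F) * Nat.card (Matrix.ProjectiveSpecialLinearGroup (Fin n) F) =
      fPSL.num n (Fintype.card F) := by
    have h := S0243.result (F := F) rfl n hn
    rw [Fin.prod_univ_eq_prod_range (fun i => Fintype.card F ^ n - Fintype.card F ^ i) n, ← prod_list] at h
    change Nat.gcd n (Fintype.card F - 1) * (Fintype.card F - 1) * _ = glN n (Fintype.card F)
    rw [mul_assoc]
    exact h
  refine mem_candE fPSL Fintype.isPrimePow_card_of_field ho hn (le_tri hn).1 (le_tri hn).2 ?_ hc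
    (pow_dvd_glN n _) ?_ h38 hP
  · change (!(Nat.beq n 2 && Nat.blt (Fintype.card F) 4)) = true
    by_cases h2 : n = 2
    · have h4 := hn2 h2
      have : Nat.blt (Fintype.card F) 4 = false := by
        rw [← Bool.not_eq_true, Nat.blt_eq]
        omega
      rw [this, Bool.and_false]
      rfl
    · have : Nat.beq n 2 = false := by
        rw [← Bool.not_eq_true, Nat.beq_eq]
        exact h2
      rw [this, Bool.false_and]
      rfl
  · change (Nat.gcd n (Fintype.card F - 1) * (Fintype.card F - 1)).Coprime (Fintype.card F)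
    have h1 := cop_sub (q := Fintype.card F) (k := 1) (by omega) le_rfl
    rw [pow_one] at h1
    exact Nat.Coprime.mul_left (Nat.Coprime.coprime_dvd_left (Nat.gcd_dvd_right _ _) h1) h1

theorem psp_case {F : Type} [Field F] [Fintype F] {m : ℕ} (hm : 2 ≤ m) (hm2 : m = 2 → 3 ≤ Fintype.card F)
    (hES : HasES (2 ^ 21) X) (e : X ≃* PSp m F) (h38 : ¬ 2 ^ 38 ∣ Nat.card X) (hP : P (Nat.card X) = true) :
    (m, Fintype.card F) ∈ candE P fPSp := by
  have hcX : Nat.card X = Nat.card (PSp m F) := Nat.card_congr e.toEquiv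
  have hq : 1 < Fintype.card F := Fintype.one_lt_card
  have hc : fPSp.den m (Fintype.card F) * Nat.card (PSp m F) = fPSp.num m (Fintype.card F) := by
    have h1 := S0245.result (F := F) rfl m
    have h2 := S0246.result (F := F) rfl m (by omega)
    have h3 := Subgroup.card_eq_card_quotient_mul_card_subgroup
      (Subgroup.center (Matrix.symplecticGroup (Fin m) F))
    rw [← prod_list (fun i => Fintype.card F ^ (2 * (i + 1)) - 1)] at h1
    rw [h1, h2] at h3
    change Nat.gcd 2 (Fintype.card F - 1) * Nat.card (PSp m F) = Fintype.card F ^ (m ^ 2) * prB (Fintype.card F) m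
    rw [mul_comm]
    exact h3.symm
  by_cases ho : Odd (Fintype.card F)
  · exfalso
    have h1 := deg4 (psp (by norm_num) (two_ne ho) hES e)
    have h2 : 2 ^ 44 ∣ Nat.card (PSp m F) := by
      refine TwoPart.half (Nat.gcd_dvd_left 2 (Fintype.card F - 1)) ?_ hc
      change 2 ^ 45 ∣ Fintype.card F ^ (m ^ 2) * prB (Fintype.card F) m
      unfold prB
      rw [prod_list]
      exact (TwoPart.prB15 ho (by omega)).trans (Dvd.intro_left _ rfl)
    rw [← hcX] at h2
    exact h38 ((pow_dvd_pow 2 (by norm_num)).trans h2)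
  rw [hcX] at h38 hP
  have hmm : m ≤ m ^ 2 := by nlinarith
  refine mem_candE fPSp Fintype.isPrimePow_card_of_field ho hm (hmm.trans (Nat.le_succ _))
    (Nat.one_le_pow _ _ (by omega)) ?_ hc (Dvd.intro _ rfl) ?_ h38 hP
  · change (!(Nat.beq m 2 && Nat.blt (Fintype.card F) 3)) = true
    by_cases h2 : m = 2
    · have h4 := hm2 h2
      have : Nat.blt (Fintype.card F) 3 = false := by
        rw [← Bool.not_eq_true, Nat.blt_eq]
        omega
      rw [this, Bool.and_false]
      rfl
    · have : Nat.beq m 2 = false := by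
        rw [← Bool.not_eq_true, Nat.beq_eq]
        exact h2
      rw [this, Bool.false_and]
      rfl
  · change (Nat.gcd 2 (Fintype.card F - 1)).Coprime (Fintype.card F)
    have h1 := cop_sub (q := Fintype.card F) (k := 1) (by omega) le_rfl
    rw [pow_one] at h1
    exact Nat.Coprime.coprime_dvd_left (Nat.gcd_dvd_right _ _) h1

theorem psu_case {F : Type} [Field F] [Fintype F] {n q : ℕ} (hF : Fintype.card F = q ^ 2) (hn : 3 ≤ n)
    (hn2 : ¬ (n = 3 ∧ q = 2)) (hES : HasES (2 ^ 21) X) (e : X ≃* PSU n F q) (h38 : ¬ 2 ^ 38 ∣ Nat.card X)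
    (hP : P (Nat.card X) = true) : (n, q) ∈ candE P fPSU := by
  have hcX : Nat.card X = Nat.card (PSU n F q) := Nat.card_congr e.toEquiv
  have hq2 : IsPrimePow (q ^ 2) := hF ▸ Fintype.isPrimePow_card_of_field
  have hqp : IsPrimePow q := (isPrimePow_pow_iff (by norm_num)).1 hq2
  by_cases ho : Odd q
  · exfalso
    have h1 := deg4 (psu (by norm_num) (two_ne_of_sq hF ho) hF hn hES e)
    have h2 := TwoPart.psu ho h1 (S0280.result hF n (by omega))
    rw [← hcX] at h2
    exact h38 ((pow_dvd_pow 2 (by norm_num)).trans h2)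
  rw [hcX] at h38 hP
  have hc : fPSU.den n q * Nat.card (PSU n F q) = fPSU.num n q := by
    have h := S0280.result hF n (by omega)
    rw [← prod_list] at h
    change Nat.gcd n (q + 1) * (q + 1) * _ = q ^ (n * (n - 1) / 2) * prU q n
    have h2 : prU q n = ((List.range n).map fun i => if Even i then q ^ (i + 1) + 1 else q ^ (i + 1) - 1).prod := by
      unfold prU
      congr 1
      apply List.map_congr_left
      intro i _
      by_cases h : Even i
      · rw [if_pos h, if_pos]
        rw [Nat.beq_eq]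
        exact Nat.even_iff.1 h
      · rw [if_neg h, if_neg]
        rw [Nat.beq_eq, ← Nat.even_iff]
        exact h
    rw [h2, mul_assoc]
    exact h
  refine mem_candE fPSU hqp ho hn (le_tri (by omega)).1 (le_tri (by omega)).2 ?_ hc (Dvd.intro _ rfl) ?_ h38 hP
  · change (!(Nat.beq n 3 && Nat.beq q 2)) = true
    by_cases h2 : n = 3
    · have h4 : q ≠ 2 := fun h => hn2 ⟨h2, h⟩
      have : Nat.beq q 2 = false := by
        rw [← Bool.not_eq_true, Nat.beq_eq]
        exact h4
      rw [this, Bool.and_false]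
      rfl
    · have : Nat.beq n 3 = false := by
        rw [← Bool.not_eq_true, Nat.beq_eq]
        exact h2
      rw [this, Bool.false_and]
      rfl
  · change (Nat.gcd n (q + 1) * (q + 1)).Coprime q
    have h1 := cop_add (q := q) (k := 1) le_rfl
    rw [pow_one] at h1
    exact Nat.Coprime.mul_left (Nat.Coprime.coprime_dvd_left (Nat.gcd_dvd_right _ _) h1) h1

theorem oodd_case {F : Type} [Field F] [Fintype F] {m : ℕ} (hm : 3 ≤ m) (ho : Odd (Fintype.card F))
    (hES : HasES (2 ^ 21) X) (e : X ≃* POmega F (quadFormOdd m F)) (h38 : ¬ 2 ^ 38 ∣ Nat.card X) : False := by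
  have hcX : Nat.card X = Nat.card (POmega F (quadFormOdd m F)) := Nat.card_congr e.toEquiv
  have h1 := deg4 (oodd (by norm_num) (two_ne ho) (by omega) hES e)
  have h2 : 2 ^ 44 ∣ Nat.card (POmega F (quadFormOdd m F)) := by
    refine TwoPart.half dvd_rfl ?_ (S0292.result (F := F) rfl ho m hm)
    exact (TwoPart.prB15 ho (by omega)).trans (Dvd.intro_left _ rfl)
  rw [← hcX] at h2
  exact h38 ((pow_dvd_pow 2 (by norm_num)).trans h2)

theorem oplus_case {F : Type} [Field F] [Fintype F] {m : ℕ} (hm : 4 ≤ m)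
    (hES : HasES (2 ^ 21) X) (e : X ≃* POmega F (quadFormPlus m F)) (h38 : ¬ 2 ^ 38 ∣ Nat.card X)
    (hP : P (Nat.card X) = true) : (m, Fintype.card F) ∈ candE P fOPlus := by
  have hcX : Nat.card X = Nat.card (POmega F (quadFormPlus m F)) := Nat.card_congr e.toEquiv
  have hq : 1 < Fintype.card F := Fintype.one_lt_card
  have h := S0293.result (F := F) rfl m hm
  by_cases ho : Odd (Fintype.card F)
  · exfalso
    have h1 := deg4 (oplus (by norm_num) (two_ne ho) (by omega) hES e)
    have h2 := TwoPart.orth ho (by omega) (Nat.gcd_pos_of_pos_left _ (by norm_num)) (Nat.gcd_dvd_right _ _) h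
    rw [← hcX] at h2
    exact h38 ((pow_dvd_pow 2 (by norm_num)).trans h2)
  rw [hcX] at h38 hP
  have hc : fOPlus.den m (Fintype.card F) * Nat.card (POmega F (quadFormPlus m F)) =
      fOPlus.num m (Fintype.card F) := by
    rw [← prod_list (fun i => Fintype.card F ^ (2 * (i + 1)) - 1)] at h
    change Nat.gcd 4 (Fintype.card F ^ m - 1) * _ =
      Fintype.card F ^ (m * (m - 1)) * ((Fintype.card F ^ m - 1) * prB (Fintype.card F) (m - 1))
    rw [← mul_assoc (Fintype.card F ^ (m * (m - 1)))]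
    exact h
  have hmm : m ≤ m * (m - 1) := Nat.le_mul_of_pos_right _ (by omega)
  refine mem_candE fOPlus Fintype.isPrimePow_card_of_field ho hm (hmm.trans (Nat.le_succ _))
    (le_trans (by omega) hmm) rfl hc (Dvd.intro _ rfl) ?_ h38 hP
  change (Nat.gcd 4 (Fintype.card F ^ m - 1)).Coprime (Fintype.card F)
  exact Nat.Coprime.coprime_dvd_left (Nat.gcd_dvd_right _ _) (cop_sub (by omega) (by omega))

theorem ominus_case {F : Type} [Field F] [Fintype F] {m : ℕ} (hm : 4 ≤ m) {a b : F}
    (hab : ∀ z₁ z₂ : F, z₁ ^ 2 + a * z₁ * z₂ + b * z₂ ^ 2 = 0 → z₁ = 0 ∧ z₂ = 0)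
    (hES : HasES (2 ^ 21) X) (e : X ≃* POmega F (quadFormMinus (m - 1) F a b)) (h38 : ¬ 2 ^ 38 ∣ Nat.card X)
    (hP : P (Nat.card X) = true) : (m, Fintype.card F) ∈ candE P fOMinus := by
  have hcX : Nat.card X = Nat.card (POmega F (quadFormMinus (m - 1) F a b)) := Nat.card_congr e.toEquiv
  have h := S0294.result (F := F) rfl m hm a b hab
  by_cases ho : Odd (Fintype.card F)
  · exfalso
    have h1 := deg4 (ominus (by norm_num) (two_ne ho) (by omega) hab hES e)
    have h2 := TwoPart.orth ho (by omega) (Nat.gcd_pos_of_pos_left _ (by norm_num)) (Nat.gcd_dvd_right _ _) h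
    rw [← hcX] at h2
    exact h38 ((pow_dvd_pow 2 (by norm_num)).trans h2)
  rw [hcX] at h38 hP
  have hc : fOMinus.den m (Fintype.card F) * Nat.card (POmega F (quadFormMinus (m - 1) F a b)) =
      fOMinus.num m (Fintype.card F) := by
    rw [← prod_list (fun i => Fintype.card F ^ (2 * (i + 1)) - 1)] at h
    change Nat.gcd 4 (Fintype.card F ^ m + 1) * _ =
      Fintype.card F ^ (m * (m - 1)) * ((Fintype.card F ^ m + 1) * prB (Fintype.card F) (m - 1))
    rw [← mul_assoc (Fintype.card F ^ (m * (m - 1)))]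
    exact h
  have hmm : m ≤ m * (m - 1) := Nat.le_mul_of_pos_right _ (by omega)
  refine mem_candE fOMinus Fintype.isPrimePow_card_of_field ho hm (hmm.trans (Nat.le_succ _))
    (le_trans (by omega) hmm) rfl hc (Dvd.intro _ rfl) ?_ h38 hP
  change (Nat.gcd 4 (Fintype.card F ^ m + 1)).Coprime (Fintype.card F)
  exact Nat.Coprime.coprime_dvd_left (Nat.gcd_dvd_right _ _) (cop_add (by omega))

theorem alt_case {n : ℕ} (hn : 5 ≤ n) (hES : HasES (2 ^ 21) X) (e : X ≃* ↥(alternatingGroup (Fin n)))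
    (h38 : ¬ 2 ^ 38 ∣ Nat.card X) : False := by
  have h1 := deg2 (alt (by norm_num) hES e)
  have h2 := alt_card hn e
  have h3 : 2 ^ 39 ∣ n.factorial :=
    (two_pow_dvd_factorial 39).trans (Nat.factorial_dvd_factorial (by omega))
  rw [h2, show (2 : ℕ) ^ 39 = 2 * 2 ^ 38 by norm_num] at h3
  exact h38 (Nat.dvd_of_mul_dvd_mul_left (by norm_num) h3)

/-- exceptional groups in odd characteristic -/
theorem exc_case {F : Type} [Field F] (D : Lie.ChevalleyDatum) (hD : D.rank + D.nroots < 1024)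
    (h2 : (2 : F) ≠ 0) {H : Subgroup (Matrix.GeneralLinearGroup D.Idx F)} (hES : HasES (2 ^ 21) X)
    (e : X ≃* H) : False := by
  have h1 := deg2 (gl (by norm_num) h2 hES e)
  rw [Fintype.card_sum, Fintype.card_fin, Fintype.card_fin] at h1
  omega

end

/-- **The elimination.** -/
theorem elim (T : OrderTable.{u}) {S : Type u} [Group S] (h : IsKnownSimple' S)
    (hES : HasES (2 ^ 21) S) (h38 : ¬ 2 ^ 38 ∣ Nat.card S) {P : ℕ → Bool} (hP : P (Nat.card S) = true) :
    ∃ g ∈ candsE P, Real g S := by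
  have key : ∀ (g : Grp), g ∈ spor.map (fun x => x.1) → Real g S → ∃ g ∈ candsE P, Real g S := fun g hg hr => by
    obtain ⟨x, hx, rfl⟩ := List.mem_map.1 hg
    refine ⟨x.1, mem_candsE 14 (List.mem_map.2 ⟨x, List.mem_filter.2 ⟨hx, ?_⟩, rfl⟩), hr⟩
    rw [← T.spor S x hx hr]; exact hP
  rcases h with h | h | h | h | h | h | h | h | h | h
  · exfalso
    have : Fact (Nat.card S).Prime := ⟨h⟩
    have : IsCyclic S := isCyclic_of_prime_card (p := Nat.card S) rfl
    have hcom : ∀ a b : S, a * b = b * a := fun a b => (IsCyclic.isMulCommutative (α := S)).is_comm.comm a b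
    obtain ⟨Q, z, hz, hc⟩ := hES
    have h1 : Nat.card Q ≤ 2 := by
      have hsub : ∀ x : Q, x = 1 ∨ x = z := fun x => hz.cent x fun y => Subtype.ext (hcom _ _)
      have h2 : Nat.card Q ≤ Nat.card (Fin 2) := by
        have : Function.Surjective (fun i : Fin 2 => if i = 0 then (1 : Q) else z) := by
          intro x
          rcases hsub x with h | h
          · exact ⟨0, by rw [h]; rfl⟩
          · exact ⟨1, by rw [h]; rfl⟩
        exact Nat.card_le_card_of_surjective _ this
      rwa [Nat.card_fin] at h2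
    rw [hc] at h1
    norm_num at h1
  · obtain ⟨n, hn, ⟨e⟩⟩ := h
    exact (alt_case hn hES e h38).elim
  · obtain ⟨F, _, _, n, hn, hn2, ⟨e⟩⟩ := h
    exact ⟨.psl n (Fintype.card F), mem_candsE 0 (List.mem_map.2 ⟨_, psl_case hn hn2 hES e h38 hP, rfl⟩),
      ⟨F, inferInstance, inferInstance, rfl, ⟨e⟩⟩⟩
  · obtain ⟨F, _, _, n, hn, hn2, ⟨e⟩⟩ := h
    exact ⟨.psp n (Fintype.card F), mem_candsE 1 (List.mem_map.2 ⟨_, psp_case hn hn2 hES e h38 hP, rfl⟩),
      ⟨F, inferInstance, inferInstance, rfl, ⟨e⟩⟩⟩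
  · obtain ⟨F, _, _, n, q, hF, hn, hn2, ⟨e⟩⟩ := h
    exact ⟨.psu n q, mem_candsE 2 (List.mem_map.2 ⟨_, psu_case hF hn hn2 hES e h38 hP, rfl⟩),
      ⟨F, inferInstance, inferInstance, hF, ⟨e⟩⟩⟩
  · obtain ⟨F, _, _, n, hn, ho, ⟨e⟩⟩ := h
    exact (oodd_case hn ho hES e h38).elim
  · obtain ⟨F, _, _, n, hn, ⟨e⟩⟩ := h
    exact ⟨.oplus n (Fintype.card F), mem_candsE 3 (List.mem_map.2 ⟨_, oplus_case hn hES e h38 hP, rfl⟩),
      ⟨F, inferInstance, inferInstance, rfl, ⟨e⟩⟩⟩
  · obtain ⟨F, _, _, n, a, b, hn, hab, ⟨e⟩⟩ := h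
    exact ⟨.ominus n (Fintype.card F), mem_candsE 4 (List.mem_map.2 ⟨_, ominus_case hn hab hES e h38 hP, rfl⟩),
      ⟨F, inferInstance, inferInstance, a, b, rfl, hab, ⟨e⟩⟩⟩
  · rcases h with h | h | h | h | h | h | h | h | h | h | h
    · obtain ⟨F, _, _, hq, ⟨e⟩⟩ := h
      by_cases ho : Odd (Fintype.card F)
      · exact (exc_case Lie.chevG2 (by decide) (two_ne ho) hES e).elim
      rw [Nat.card_congr e.toEquiv] at h38 hP
      exact ⟨.g2 (Fintype.card F), mem_candsE 5 (List.mem_map.2 ⟨_, one_memE (by norm_num)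
        Fintype.isPrimePow_card_of_field ho (by rw [Nat.ble_eq]; exact hq)
          (by rw [T.g2 F]; ring) (Nat.coprime_one_left _) h38 hP, rfl⟩),
        ⟨F, inferInstance, inferInstance, rfl, ⟨e⟩⟩⟩
    · obtain ⟨F, _, _, ⟨e⟩⟩ := h
      by_cases ho : Odd (Fintype.card F)
      · exact (exc_case Lie.chevF4 (by decide) (two_ne ho) hES e).elim
      rw [Nat.card_congr e.toEquiv] at h38 hP
      exact ⟨.f4 (Fintype.card F), mem_candsE 6 (List.mem_map.2 ⟨_, one_memE (by norm_num)
        Fintype.isPrimePow_card_of_field ho rfl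
          (by rw [T.f4 F _ rfl]; ring) (Nat.coprime_one_left _) h38 hP, rfl⟩),
        ⟨F, inferInstance, inferInstance, rfl, ⟨e⟩⟩⟩
    · obtain ⟨F, _, _, ⟨e⟩⟩ := h
      by_cases ho : Odd (Fintype.card F)
      · exact (exc_case Lie.chevE6 (by decide) (two_ne ho) hES e).elim
      rw [Nat.card_congr e.toEquiv] at h38 hP
      have h0 := cop_sub (q := Fintype.card F) (k := 1) Fintype.card_pos le_rfl
      rw [pow_one] at h0
      exact ⟨.e6 (Fintype.card F), mem_candsE 7 (List.mem_map.2 ⟨_, one_memE (by norm_num)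
        Fintype.isPrimePow_card_of_field ho rfl
          (by rw [T.e6 F _ rfl]; ring) (Nat.Coprime.coprime_dvd_left (Nat.gcd_dvd_right _ _) h0) h38 hP, rfl⟩),
        ⟨F, inferInstance, inferInstance, rfl, ⟨e⟩⟩⟩
    · obtain ⟨F, _, _, ⟨e⟩⟩ := h
      by_cases ho : Odd (Fintype.card F)
      · exact (exc_case Lie.chevE7 (by decide) (two_ne ho) hES e).elim
      rw [Nat.card_congr e.toEquiv] at h38 hP
      have h0 := cop_sub (q := Fintype.card F) (k := 1) Fintype.card_pos le_rfl
      rw [pow_one] at h0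
      exact ⟨.e7 (Fintype.card F), mem_candsE 8 (List.mem_map.2 ⟨_, one_memE (by norm_num)
        Fintype.isPrimePow_card_of_field ho rfl
          (by rw [T.e7 F _ rfl]; ring) (Nat.Coprime.coprime_dvd_left (Nat.gcd_dvd_right _ _) h0) h38 hP, rfl⟩),
        ⟨F, inferInstance, inferInstance, rfl, ⟨e⟩⟩⟩
    · obtain ⟨F, _, _, ⟨e⟩⟩ := h
      by_cases ho : Odd (Fintype.card F)
      · exact (exc_case Lie.chevE8 (by decide) (two_ne ho) hES e).elim
      rw [Nat.card_congr e.toEquiv] at h38 hP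
      exact ⟨.e8 (Fintype.card F), mem_candsE 9 (List.mem_map.2 ⟨_, one_memE (by norm_num)
        Fintype.isPrimePow_card_of_field ho rfl
          (by rw [T.e8 F _ rfl]; ring) (Nat.coprime_one_left _) h38 hP, rfl⟩),
        ⟨F, inferInstance, inferInstance, rfl, ⟨e⟩⟩⟩
    · obtain ⟨F, _, _, q, hq, hF, ⟨e⟩⟩ := h
      by_cases ho : Odd q
      · exact (exc_case Lie.chevE6 (by decide) (two_ne_of_sq hF ho) hES e).elim
      rw [Nat.card_congr e.toEquiv] at h38 hP
      have h0 := cop_add (q := q) (k := 1) le_rfl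
      rw [pow_one] at h0
      exact ⟨.te6 q, mem_candsE 10 (List.mem_map.2 ⟨_, one_memE (by norm_num) hq ho rfl
          (by rw [T.te6 F q hq hF]; ring) (Nat.Coprime.coprime_dvd_left (Nat.gcd_dvd_right _ _) h0) h38 hP, rfl⟩),
        ⟨F, inferInstance, inferInstance, hF, ⟨e⟩⟩⟩
    · obtain ⟨F, _, _, q, hq, hF, ⟨e⟩⟩ := h
      by_cases ho : Odd q
      · exact (exc_case Lie.chevD4 (by decide) (two_ne_of_sq hF ho) hES e).elim
      rw [Nat.card_congr e.toEquiv] at h38 hP
      exact ⟨.td4 q, mem_candsE 11 (List.mem_map.2 ⟨_, one_memE (by norm_num) hq ho rfl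
          (by rw [T.td4 F q hq hF]; ring) (Nat.coprime_one_left _) h38 hP, rfl⟩),
        ⟨F, inferInstance, inferInstance, hF, ⟨e⟩⟩⟩
    · obtain ⟨F, _, _, m, hm, hF, ⟨e⟩⟩ := h
      have ho : ¬ Odd (2 ^ (2 * m + 1)) := Nat.not_odd_iff_even.2 ((even_two).pow_of_ne_zero (by omega))
      rw [Nat.card_congr e.toEquiv] at h38 hP
      exact ⟨.sz (2 ^ (2 * m + 1)), mem_candsE 12 (List.mem_map.2 ⟨_, one_memE (by norm_num)
          (Nat.prime_two.isPrimePow.pow (by omega)) ho (ok_two hm)
          (by rw [T.sz F m hm hF]; ring) (Nat.coprime_one_left _) h38 hP, rfl⟩),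
        ⟨F, inferInstance, inferInstance, m, hm, hF, rfl, ⟨e⟩⟩⟩
    · obtain ⟨F, _, _, m, hm, hF, ⟨e⟩⟩ := h
      have ho : Odd (3 : ℕ) := by decide
      exact (exc_case Lie.chevG2 (by decide) (two_ne_of_sq hF ho) hES e).elim
    · obtain ⟨F, _, _, m, hm, hF, ⟨e⟩⟩ := h
      have ho : ¬ Odd (2 ^ (2 * m + 1)) := Nat.not_odd_iff_even.2 ((even_two).pow_of_ne_zero (by omega))
      rw [Nat.card_congr e.toEquiv] at h38 hP
      exact ⟨.tf4 (2 ^ (2 * m + 1)), mem_candsE 13 (List.mem_map.2 ⟨_, one_memE (by norm_num)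
          (Nat.prime_two.isPrimePow.pow (by omega)) ho (ok_two hm)
          (by rw [T.tf4 F m hm hF]; ring) (Nat.coprime_one_left _) h38 hP, rfl⟩),
        ⟨F, inferInstance, inferInstance, m, hm, hF, rfl, ⟨e⟩⟩⟩
    · exact key .tits (by decide) h
  · rcases h with h | h | h | h | h | h | h | h | h | h | h | h | h | h | h | h | h | h | h | h | h | h | h | h | h | h
    · exact key .m11 (by decide) h
    · exact key .m12 (by decide) h
    · exact key .m22 (by decide) h
    · exact key .m23 (by decide) h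
    · exact key .m24 (by decide) h
    · exact key .j1 (by decide) h
    · exact key .j2 (by decide) h
    · exact key .j3 (by decide) h
    · exact key .j4 (by decide) h
    · exact key .co1 (by decide) h
    · exact key .co2 (by decide) h
    · exact key .co3 (by decide) h
    · exact key .mcl (by decide) h
    · exact key .hs (by decide) h
    · exact key .suz (by decide) h
    · exact key .he (by decide) h
    · exact key .ru (by decide) h
    · exact key .on (by decide) h
    · exact key .ly (by decide) h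
    · exact key .fi22 (by decide) h
    · exact key .fi23 (by decide) h
    · exact key .fi24 (by decide) h
    · exact key .hn (by decide) h
    · exact key .th (by decide) h
    · exact key .b (by decide) h
    · exact key .m (by decide) h

end Cfsg.Agent.H349.Elim
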