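import Cfsg.Agent.H349.Core
import Cfsg.Agent.LThreeMB.Simp
import Cfsg.Agent.LThreeCo1.FourCo1

/-!
# Groups with an involution centralizer `2^(1+20):U_6(2)` or `2^(1+20):U_6(2):2` (helper349)

`main` : `F*(G)` is the simple group `²E_6(2)`, with `C_{F*(G)}(z)` the preimage `H` of `U_6(2)`.
-/

set_option autoImplicit false
open Cfsg

namespace Cfsg.Agent.H349.Red

open Cfsg.Agent.Co2Type.Quad (Large)
open Cfsg.Agent.LargeExtra.Base (exists_not_comm isPGroup)
open Cfsg.Agent.OrdDiv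
open Subgroup (centralizer mem_centralizer_singleton_iff)

universe u

section

variable {G : Type*} [Group G] {Q K : Subgroup G} {z : G}

/-- a normal subgroup containing `Q` covers `G / C_G(z)` -/
theorem frattini [Finite G] (L : Large Q z) (hK : K.Normal) (hQK : Q ≤ K) (g : G) :
    ∃ y ∈ K, ∃ c, c * z = z * c ∧ y * c = g := by
  have : Fact (Nat.Prime 2) := ⟨Nat.prime_two⟩
  have hP2 : IsPGroup 2 ↥(Q.subgroupOf K) :=
    (isPGroup L).of_injective (Subgroup.subgroupOfEquivOfLe hQK).toMonoidHom (Subgroup.subgroupOfEquivOfLe hQK).injective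
  obtain ⟨S, hS⟩ := hP2.exists_le_sylow
  let S' : Subgroup G := (S : Subgroup ↥K).map K.subtype
  have hPS : Q ≤ S' := by
    intro p hp
    exact ⟨⟨p, hQK hp⟩, hS (Subgroup.mem_subgroupOf.2 hp), rfl⟩
  have hS'2 : IsPGroup 2 ↥S' := S.isPGroup'.map _
  have hcen : ∀ s ∈ S', (∀ y ∈ S', s * y = y * s) → s = 1 ∨ s = z := by
    intro s hs hsc
    have h1 : s ∈ Q := L.self s (hsc z (hPS L.z_mem)) fun p hp => hsc p (hPS hp)
    exact L.cent s h1 fun y hy => hsc y (hPS hy)
  have hSt : ∀ s ∈ S', s * z = z * s := fun s hs =>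
    mem_centralizer_singleton_iff.1 (LargeExtra.TwoCentral.le_centralizer_of_two L hS'2 hPS hs)
  have hnor : ∀ g ∈ Subgroup.normalizer (S' : Set G), g * z = z * g := by
    intro g hg
    have h1 : g * z * g⁻¹ ∈ S' := (Subgroup.mem_normalizer_iff.1 hg z).1 (hPS L.z_mem)
    have h2 : ∀ y ∈ S', g * z * g⁻¹ * y = y * (g * z * g⁻¹) := by
      intro y hy
      have h3 : g⁻¹ * y * g ∈ S' := by
        have h4 := (Subgroup.mem_normalizer_iff.1 hg (g⁻¹ * y * g)).2 (by
          have e : g * (g⁻¹ * y * g) * g⁻¹ = y := by group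
          rwa [e])
        exact h4
      have h4 := hSt _ h3
      calc g * z * g⁻¹ * y = g * (z * (g⁻¹ * y * g)) * g⁻¹ := by group
        _ = g * ((g⁻¹ * y * g) * z) * g⁻¹ := by rw [h4]
        _ = y * (g * z * g⁻¹) := by group
    rcases hcen _ h1 h2 with h3 | h3
    · exfalso
      apply L.z_ne
      calc z = g⁻¹ * (g * z * g⁻¹) * g := by group
        _ = 1 := by rw [h3]; group
    · exact mul_inv_eq_iff_eq_mul.1 h3
  have hfrat : Subgroup.normalizer (S' : Set G) ⊔ K = ⊤ := Sylow.normalizer_sup_eq_top S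
  have hg : g ∈ K ⊔ Subgroup.normalizer (S' : Set G) := by rw [sup_comm, hfrat]; trivial
  rw [Subgroup.mem_sup_of_normal_left] at hg
  obtain ⟨y, hy, c, hc, hyc⟩ := hg
  exact ⟨y, hy, c, hnor c hc, hyc⟩

/-- the case `C_K(z) = Q` is impossible -/
theorem cent_ne [Finite G] (L : Large Q z) (hcard : 8 < Nat.card Q) (hK : K.Normal) (hQK : Q ≤ K)
    (hfus : ∃ g, g * z * g⁻¹ ∈ Q ∧ g * z * g⁻¹ ≠ z) (hC : ∀ x ∈ K, x * z = z * x → x ∈ Q) : False := by
  obtain ⟨g, hgP, hgt⟩ := hfus
  obtain ⟨y, hy, c, hct, hyc⟩ := frattini L hK hQK g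
  have hyt : y * z * y⁻¹ = g * z * g⁻¹ := by
    rw [← hyc]
    calc y * z * y⁻¹ = y * (z * c) * c⁻¹ * y⁻¹ := by group
      _ = y * (c * z) * c⁻¹ * y⁻¹ := by rw [hct]
      _ = (y * c) * z * (y * c)⁻¹ := by group
  set a := g * z * g⁻¹ with ha
  have ha1 : a ≠ 1 := by
    intro h
    apply L.z_ne
    calc z = g⁻¹ * a * g := by rw [ha]; group
      _ = 1 := by rw [h]; group
  obtain ⟨u, hu, v, hv, hua, hva, huv⟩ := LThreeMB.Simp.exists_noncomm L hcard hgP ha1 hgt
  have hmem : ∀ u ∈ Q, u * a = a * u → y⁻¹ * u * y ∈ Q := by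
    intro u hu hua
    apply hC
    · exact K.mul_mem (K.mul_mem (K.inv_mem hy) (hQK hu)) hy
    · have e : z = y⁻¹ * a * y := by rw [← hyt]; group
      calc y⁻¹ * u * y * z = y⁻¹ * u * y * (y⁻¹ * a * y) := by rw [← e]
        _ = y⁻¹ * (u * a) * y := by group
        _ = y⁻¹ * (a * u) * y := by rw [hua]
        _ = (y⁻¹ * a * y) * (y⁻¹ * u * y) := by group
        _ = z * (y⁻¹ * u * y) := by rw [← e]
  have hu' := hmem u hu hua
  have hv' := hmem v hv hva
  have e1 := (L.comm u hu v hv).resolve_left huv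
  rcases L.comm _ hu' _ hv' with e2 | e2
  · apply huv
    calc u * v = y * ((y⁻¹ * u * y) * (y⁻¹ * v * y)) * y⁻¹ := by group
      _ = y * ((y⁻¹ * v * y) * (y⁻¹ * u * y)) * y⁻¹ := by rw [e2]
      _ = v * u := by group
  · apply hgt
    have e3 : u * v = v * u * a := by
      calc u * v = y * ((y⁻¹ * u * y) * (y⁻¹ * v * y)) * y⁻¹ := by group
        _ = y * ((y⁻¹ * v * y) * (y⁻¹ * u * y) * z) * y⁻¹ := by rw [e2]
        _ = v * u * (y * z * y⁻¹) := by group
        _ = v * u * a := by rw [hyt]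
    exact mul_left_cancel (e3.symm.trans e1)

/-- the index of a normal subgroup containing `Q` -/
theorem index_eq [Finite G] (L : Large Q z) (hK : K.Normal) (hQK : Q ≤ K) :
    K.index = K.relIndex (centralizer ({z} : Set G)) := by
  have h1 : centralizer ({z} : Set G) ⊔ K = ⊤ := by
    rw [eq_top_iff]
    intro g _
    obtain ⟨y, hy, c, hc, rfl⟩ := frattini L hK hQK g
    exact mul_mem (le_sup_right (a := centralizer ({z} : Set G)) hy)
      (le_sup_left (b := K) (mem_centralizer_singleton_iff.2 hc))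
  rw [← Subgroup.relIndex_top_right, ← h1, Subgroup.relIndex_sup_right]

/-- `Q` is large in a subgroup containing it -/
theorem large_sub (L : Large Q z) (hQK : Q ≤ K) :
    Large (Q.subgroupOf K) (⟨z, hQK L.z_mem⟩ : K) where
  z_mem := L.z_mem
  z_ne := fun h => L.z_ne (congrArg Subtype.val h)
  z_sq := Subtype.ext L.z_sq
  comm_z := fun x hx => Subtype.ext (L.comm_z x hx)
  conj_mem := fun g hg x hx => L.conj_mem g (congrArg Subtype.val hg) x hx
  sq := fun x hx => by
    rcases L.sq x hx with h | h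
    · exact Or.inl (Subtype.ext h)
    · exact Or.inr (Subtype.ext h)
  comm := fun x hx y hy => by
    rcases L.comm x hx y hy with h | h
    · exact Or.inl (Subtype.ext h)
    · exact Or.inr (Subtype.ext h)
  cent := fun x hx h => by
    rcases L.cent x hx (fun y hy => congrArg Subtype.val (h ⟨y, hQK hy⟩ hy)) with h | h
    · exact Or.inl (Subtype.ext h)
    · exact Or.inr (Subtype.ext h)
  self := fun g hg h => L.self g (congrArg Subtype.val hg) fun x hx => congrArg Subtype.val (h ⟨x, hQK hx⟩ hx)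

theorem card_cent_sub (hz : z ∈ K) :
    Nat.card (centralizer ({(⟨z, hz⟩ : K)} : Set K)) = Nat.card (K ⊓ centralizer ({z} : Set G) : Subgroup G) := by
  refine Nat.card_congr
    { toFun := fun x => ⟨(x : K), Subgroup.mem_inf.2 ⟨(x : K).2, mem_centralizer_singleton_iff.2
        (congrArg Subtype.val (mem_centralizer_singleton_iff.1 x.2))⟩⟩
      invFun := fun x => ⟨⟨x, (Subgroup.mem_inf.1 x.2).1⟩, mem_centralizer_singleton_iff.2
        (Subtype.ext (mem_centralizer_singleton_iff.1 (Subgroup.mem_inf.1 x.2).2))⟩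
      left_inv := fun x => rfl
      right_inv := fun x => rfl }

end

/-- the hypotheses -/
structure Hyp {G : Type*} [Group G] (Q H : Subgroup G) (z : G) (F : Type*) [Field F] [Fintype F] : Prop where
  hF : Fintype.card F = 4
  large : Large Q z
  card : Nat.card Q = 2 ^ 21
  Hz : ∀ h ∈ H, h * z = z * h
  QH : Q ≤ H
  Hn : ∀ c, c * z = z * c → ∀ h ∈ H, c * h * c⁻¹ ∈ H
  idx : H.relIndex (centralizer ({z} : Set G)) = 1 ∨ H.relIndex (centralizer ({z} : Set G)) = 2
  hom : ∃ φ : H →* PSU 6 F 2, Function.Surjective φ ∧ ∀ x : H, φ x = 1 ↔ (x : G) ∈ Q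
  core : ∀ N : Subgroup G, (∀ n ∈ N, n * z = z * n) → (∀ c, c * z = z * c → ∀ n ∈ N, c * n * c⁻¹ ∈ N) →
    IsPGroup 2 N → N ≤ Q
  fus : ∃ g : G, g * z * g⁻¹ ∈ Q ∧ g * z * g⁻¹ ≠ z

section

variable {G : Type*} [Group G] [Finite G] {Q H : Subgroup G} {z : G} {F : Type*} [Field F] [Fintype F]

theorem Hyp.irr (h : Hyp Q H z F) : Cfsg.Agent.KFacts.LargeO2.Irr Q z := by
  intro N hN hn
  obtain ⟨φ, hφ, hker⟩ := h.hom
  exact H349.Irr.irr h.hF h.large h.card h.Hz φ hφ hker hN fun u hu => hn u (h.Hz u hu)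

theorem Hyp.nc (h : Hyp Q H z F) : ∃ a ∈ Q, ∃ b ∈ Q, a * b ≠ b * a := by
  by_contra hcon
  push Not at hcon
  have h6 : Function.Surjective (fun i : Fin 2 => if i = 0 then (1 : Q) else ⟨z, h.large.z_mem⟩) := by
    intro x
    rcases h.large.cent x x.2 (fun y hy => hcon x x.2 y hy) with h7 | h7
    · exact ⟨0, Subtype.ext h7.symm⟩
    · exact ⟨1, Subtype.ext h7.symm⟩
  have := Nat.card_le_card_of_surjective _ h6
  rw [Nat.card_fin, h.card] at this
  norm_num at this

theorem Hyp.gl (h : Hyp Q H z F) : LThreeCo1.GL.Hyp Q z := ⟨h.large, h.irr, h.nc, h.fus⟩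

theorem Hyp.card_H (h : Hyp Q H z F) : Nat.card H = 2 ^ 36 * 280665 := by
  obtain ⟨φ, hφ, hker⟩ := h.hom
  have h1 := Subgroup.card_eq_card_quotient_mul_card_subgroup φ.ker
  rw [Nat.card_congr (QuotientGroup.quotientKerEquivOfSurjective φ hφ).toEquiv,
    Core.card_psu6 (by rw [h.hF]; norm_num)] at h1
  have h2 : φ.ker = Q.subgroupOf H := by
    ext x
    rw [MonoidHom.mem_ker, hker, Subgroup.mem_subgroupOf]
  rw [h2, Nat.card_congr (Subgroup.subgroupOfEquivOfLe h.QH).toEquiv, h.card] at h1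
  rw [h1]
  norm_num

theorem Hyp.H_le (h : Hyp Q H z F) : H ≤ centralizer ({z} : Set G) := fun x hx =>
  mem_centralizer_singleton_iff.2 (h.Hz x hx)

theorem Hyp.card_C (h : Hyp Q H z F) :
    Nat.card (centralizer ({z} : Set G)) = H.relIndex (centralizer ({z} : Set G)) * (2 ^ 36 * 280665) := by
  rw [← h.card_H, mul_comm, Subgroup.relIndex, ← Nat.card_congr (Subgroup.subgroupOfEquivOfLe h.H_le).toEquiv]
  exact (Subgroup.card_mul_index _).symm

/-- normal subgroups of `G` containing `Q` contain `H` -/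
theorem Hyp.H_le_normal (h : Hyp Q H z F) {K : Subgroup G} (hK : K.Normal) (hQK : Q ≤ K) : H ≤ K := by
  obtain ⟨φ, hφ, hker⟩ := h.hom
  have hs : IsSimpleGroup (PSU 6 F 2) := Cfsg.Agent.S0283.result (q := 2) (by rw [h.hF]; norm_num) 6 (by norm_num)
    (by norm_num)
  have hn : ((K.subgroupOf H).map φ).Normal := Subgroup.Normal.map inferInstance φ hφ
  rcases hs.eq_bot_or_eq_top_of_normal _ hn with h1 | h1
  · exfalso
    -- `K ∩ H = Q`
    have hKH : ∀ x ∈ K, x ∈ H → x ∈ Q := by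
      intro x hx hxH
      have h2 : φ ⟨x, hxH⟩ ∈ (K.subgroupOf H).map φ := ⟨⟨x, hxH⟩, hx, rfl⟩
      rw [h1, Subgroup.mem_bot] at h2
      exact (hker _).1 h2
    -- `K ∩ C` is a 2-group
    have h2 : ∀ x ∈ K ⊓ centralizer ({z} : Set G), x * x ∈ Q := by
      intro x hx
      obtain ⟨hxK, hxC⟩ := Subgroup.mem_inf.1 hx
      apply hKH _ (K.mul_mem hxK hxK)
      have hnH : (H.subgroupOf (centralizer ({z} : Set G))).Normal :=
        ⟨fun n hn g => h.Hn g (mem_centralizer_singleton_iff.1 g.2) n hn⟩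
      have h3 : (⟨x, hxC⟩ : centralizer ({z} : Set G)) ^ (H.subgroupOf (centralizer ({z} : Set G))).index ∈
          H.subgroupOf (centralizer ({z} : Set G)) := Subgroup.pow_index_mem _ _
      rcases h.idx with h4 | h4
      · have h5 : (H.subgroupOf (centralizer ({z} : Set G))).index = 1 := h4
        rw [h5, pow_one] at h3
        exact H.mul_mem h3 h3
      · have h5 : (H.subgroupOf (centralizer ({z} : Set G))).index = 2 := h4
        rw [h5, pow_two] at h3
        exact h3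
    have h3 : IsPGroup 2 (K ⊓ centralizer ({z} : Set G) : Subgroup G) := by
      rintro ⟨x, hx⟩
      obtain ⟨n, hn⟩ := (isPGroup h.large) ⟨x * x, h2 x hx⟩
      refine ⟨n + 1, Subtype.ext ?_⟩
      have h4 : (x * x) ^ 2 ^ n = 1 := congrArg Subtype.val hn
      show x ^ 2 ^ (n + 1) = 1
      rw [pow_succ', pow_mul, pow_two, h4]
    have h4 : (K ⊓ centralizer ({z} : Set G) : Subgroup G) ≤ Q := by
      apply h.core _ (fun n hn => mem_centralizer_singleton_iff.1 (Subgroup.mem_inf.1 hn).2) _ h3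
      intro c hc n hn
      obtain ⟨h5, h6⟩ := Subgroup.mem_inf.1 hn
      exact Subgroup.mem_inf.2 ⟨hK.conj_mem n h5 c, mul_mem (mul_mem (mem_centralizer_singleton_iff.2 hc) h6)
        (inv_mem (mem_centralizer_singleton_iff.2 hc))⟩
    exact cent_ne h.large (by rw [h.card]; norm_num) hK hQK h.fus fun x hx hxz =>
      h4 (Subgroup.mem_inf.2 ⟨hx, mem_centralizer_singleton_iff.2 hxz⟩)
  · intro x hx
    have h2 : φ ⟨x, hx⟩ ∈ (K.subgroupOf H).map φ := by rw [h1]; trivial
    obtain ⟨y, hy, hyx⟩ := h2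
    have h3 : φ (y⁻¹ * ⟨x, hx⟩) = 1 := by rw [map_mul, map_inv, hyx, inv_mul_cancel]
    have h4 := hQK ((hker _).1 h3)
    have h5 : x = (y : G) * ((y⁻¹ * ⟨x, hx⟩ : H) : G) := by
      show x = (y : G) * ((y : G)⁻¹ * x)
      group
    rw [h5]
    exact K.mul_mem hy h4

end

/-- **Main theorem.** -/
theorem main (T : OrderTable.{u}) (hk : ∀ (K : Type u) [Group K] [Finite K], IsSimpleGroup K → IsKnownSimple' K)
    {G : Type u} [Group G] [Finite G] {Q H : Subgroup G} {z : G} {F : Type*} [Field F] [Fintype F]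
    (h : Hyp Q H z F) :
    Real (.te6 2) (generalizedFittingSubgroup G) ∧
      (generalizedFittingSubgroup G).index = H.relIndex (centralizer ({z} : Set G)) := by
  obtain ⟨hs, hna, hQK, -⟩ := h.gl.main
  have hK : (generalizedFittingSubgroup G).Normal := S1755.gfs_normal G
  set K := generalizedFittingSubgroup G with hKdef
  have hHK := h.H_le_normal hK hQK
  have hL := large_sub h.large hQK
  have hcQ : Nat.card (Q.subgroupOf K) = 2 ^ 21 := by
    rw [Nat.card_congr (Subgroup.subgroupOfEquivOfLe hQK).toEquiv, h.card]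
  have hHKC : H ≤ K ⊓ centralizer ({z} : Set G) := le_inf hHK h.H_le
  have h1 : Nat.card (K ⊓ centralizer ({z} : Set G) : Subgroup G) ∣ Nat.card (centralizer ({z} : Set G)) :=
    Subgroup.card_dvd_of_le inf_le_right
  have h2 : Nat.card H ∣ Nat.card (K ⊓ centralizer ({z} : Set G) : Subgroup G) := Subgroup.card_dvd_of_le hHKC
  rw [h.card_C] at h1
  rw [h.card_H] at h2
  have h3 : Nat.card (K ⊓ centralizer ({z} : Set G) : Subgroup G) = 2 ^ 36 * 280665 ∨
      Nat.card (K ⊓ centralizer ({z} : Set G) : Subgroup G) = 2 ^ 37 * 280665 := by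
    obtain ⟨k, hk⟩ := h2
    rw [hk, mul_comm (H.relIndex _)] at h1
    have h4 : k ∣ H.relIndex (centralizer ({z} : Set G)) := Nat.dvd_of_mul_dvd_mul_left (by norm_num) h1
    have h5 : k ∣ 2 := by
      rcases h.idx with h6 | h6 <;> rw [h6] at h4
      · exact h4.trans (by norm_num)
      · exact h4
    rcases (Nat.dvd_prime Nat.prime_two).1 h5 with h6 | h6
    · left; rw [hk, h6, mul_one]
    · right; rw [hk, h6]; norm_num
  rw [← card_cent_sub (hQK h.large.z_mem)] at h3
  obtain ⟨h4, h5⟩ := Core.core T (hk K hs) hL hcQ h3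
  refine ⟨h4, ?_⟩
  rw [card_cent_sub (hQK h.large.z_mem)] at h5
  have h6 : K ⊓ centralizer ({z} : Set G) = H := by
    refine (Subgroup.eq_of_le_of_card_ge hHKC ?_).symm
    rw [h5, h.card_H]
  rw [index_eq h.large hK hQK, ← h6, Subgroup.inf_relIndex_right]

end Cfsg.Agent.H349.Red
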