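import Mathlib

/-!
# Orbits of `S_6` on the weights of the torus of `SU_6(2)` (helper349)

`orb` : every `b : Fin 6 → ℤ/3` with sum zero which is not constant has at least twenty images under `S_6` which are
pairwise different modulo constants.
-/

set_option autoImplicit false

namespace Cfsg.Agent.H349.USixTab

/-- twenty permutations -/
def tab : Fin 20 → Fin 6 → Fin 6 :=
  ![![0, 1, 4, 5, 3, 2], ![1, 4, 3, 5, 0, 2], ![3, 1, 5, 4, 2, 0], ![0, 4, 2, 3, 5, 1], ![1, 2, 5, 0, 4, 3],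
    ![3, 5, 1, 2, 4, 0], ![0, 4, 3, 1, 2, 5], ![1, 0, 2, 3, 4, 5], ![0, 5, 1, 2, 3, 4], ![5, 0, 1, 3, 2, 4],
    ![4, 2, 3, 0, 5, 1], ![5, 3, 4, 2, 1, 0], ![3, 2, 5, 1, 0, 4], ![2, 3, 0, 5, 1, 4], ![3, 5, 2, 4, 0, 1],
    ![1, 3, 4, 2, 5, 0], ![5, 1, 0, 2, 4, 3], ![5, 4, 1, 2, 0, 3], ![2, 1, 4, 3, 0, 5], ![3, 2, 0, 4, 5, 1]]

theorem tab_inj : ∀ p, Function.Injective (tab p) := by decide +kernel

/-- the twenty images are different modulo constants -/
def Good (b : Fin 6 → Fin 3) : Prop :=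
  ∀ p q : Fin 20, p ≠ q → ∃ i : Fin 6, (b (tab p i) - b (tab p 0)) ≠ (b (tab q i) - b (tab q 0))

instance (b : Fin 6 → Fin 3) : Decidable (Good b) := by unfold Good; infer_instance

set_option synthInstance.maxHeartbeats 400000 in
set_option synthInstance.maxSize 1000 in
theorem tab_key : ∀ a0 a1 a2 : Fin 3, a0 ≤ a1 → a1 ≤ a2 → ∀ a3 : Fin 3, a2 ≤ a3 → ∀ a4 : Fin 3, a3 ≤ a4 →
    ∀ a5 : Fin 3, a4 ≤ a5 → a0 ≠ a5 → a0 + a1 + a2 + a3 + a4 + a5 = 0 → Good ![a0, a1, a2, a3, a4, a5] := by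
  decide +kernel

/-- Every nonconstant `b` with sum zero has twenty images under `S_6` which are pairwise different modulo constants. -/
theorem orb (b : Fin 6 → Fin 3) (hs : ∑ i, b i = 0) (hne : ∃ i j, b i ≠ b j) :
    ∃ σ : Fin 20 → Equiv.Perm (Fin 6), ∀ p q, p ≠ q → ∃ i, b (σ p i) - b (σ p 0) ≠ b (σ q i) - b (σ q 0) := by
  set τ := Tuple.sort b with hτ
  have hm : Monotone (b ∘ τ) := Tuple.monotone_sort b
  have hsum : ∑ i, b (τ i) = 0 := by rw [Equiv.sum_comp τ b]; exact hs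
  have h05 : b (τ 0) ≠ b (τ 5) := by
    intro h
    obtain ⟨i, j, hij⟩ := hne
    apply hij
    have key : ∀ i, b i = b (τ 0) := by
      intro i
      have h1 : b (τ 0) ≤ b (τ (τ.symm i)) := hm (Fin.zero_le _)
      have h2 : b (τ (τ.symm i)) ≤ b (τ 5) := hm (Fin.le_last _)
      rw [Equiv.apply_symm_apply] at h1 h2
      exact le_antisymm (h2.trans h.symm.le) h1
    rw [key i, key j]
  refine ⟨fun p => (Equiv.ofBijective (tab p) (Finite.injective_iff_bijective.1 (tab_inj p))).trans τ, ?_⟩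
  intro p q hpq
  have hv : ∀ i, b (τ i) = ![b (τ 0), b (τ 1), b (τ 2), b (τ 3), b (τ 4), b (τ 5)] i := by
    intro i
    fin_cases i <;> rfl
  obtain ⟨i, hi⟩ := tab_key (b (τ 0)) (b (τ 1)) (b (τ 2)) (hm (by decide)) (hm (by decide)) (b (τ 3))
    (hm (by decide)) (b (τ 4)) (hm (by decide)) (b (τ 5)) (hm (by decide)) h05
    (by rw [Fin.sum_univ_six] at hsum; exact hsum) p q hpq
  refine ⟨i, ?_⟩
  show b (τ (tab p i)) - b (τ (tab p 0)) ≠ b (τ (tab q i)) - b (τ (tab q 0))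
  rw [hv (tab p i), hv (tab p 0), hv (tab q i), hv (tab q 0)]
  exact hi

end Cfsg.Agent.H349.USixTab
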